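import Cfsg.Agent.H514.DP.Core
import Cfsg.Prelude.Def_Classification2
import Cfsg.Prelude.Def_LieTypeChar

/-!
# Assembly of S2454 from the rows (helper773)

`Row P` : every finite simple group with property `P` has `PW p 70` for all primes `p` dividing its order.
-/

set_option autoImplicit false

namespace Cfsg.Agent.H773.Pw

open Cfsg Cfsg.Agent.H514.DP

universe u

/-- the row of a simple group -/
def Row (S : Type u) [Group S] : Prop := ∀ p : ℕ, p.Prime → p ∣ Nat.card S → PW p 70 S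

/-- all rows -/
structure Rows : Prop where
  alt : ∀ n : ℕ, 5 ≤ n → Row ↥(alternatingGroup (Fin n))
  psl : ∀ (S : Type u) [Group S] [Finite S] [IsSimpleGroup S] (l : ℕ), IsPSLChar l S → Row S
  psp : ∀ (S : Type u) [Group S] [Finite S] [IsSimpleGroup S] (l : ℕ), IsPSpChar l S → Row S
  psu : ∀ (S : Type u) [Group S] [Finite S] [IsSimpleGroup S] (l : ℕ), IsPSUChar l S → Row S
  odd : ∀ (S : Type u) [Group S] [Finite S] [IsSimpleGroup S] (l : ℕ), IsPOmegaOddChar l S → Row S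
  plus : ∀ (S : Type u) [Group S] [Finite S] [IsSimpleGroup S] (l : ℕ), IsPOmegaPlusChar l S → Row S
  minus : ∀ (S : Type u) [Group S] [Finite S] [IsSimpleGroup S] (l : ℕ), IsPOmegaMinusChar l S → Row S
  g2 : ∀ (S : Type u) [Group S] [Finite S] [IsSimpleGroup S] (F : Type) [Field F] [Fintype F], 3 ≤ Fintype.card F →
    Nonempty (S ≃* Lie.chevG2.group F) → Row S
  f4 : ∀ (S : Type u) [Group S] [Finite S] [IsSimpleGroup S] (F : Type) [Field F] [Fintype F],
    Nonempty (S ≃* Lie.chevF4.group F) → Row S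
  e6 : ∀ (S : Type u) [Group S] [Finite S] [IsSimpleGroup S] (F : Type) [Field F] [Fintype F],
    Nonempty (S ≃* Lie.chevE6.group F) → Row S
  e7 : ∀ (S : Type u) [Group S] [Finite S] [IsSimpleGroup S] (F : Type) [Field F] [Fintype F],
    Nonempty (S ≃* Lie.chevE7.group F) → Row S
  e8 : ∀ (S : Type u) [Group S] [Finite S] [IsSimpleGroup S] (F : Type) [Field F] [Fintype F],
    Nonempty (S ≃* Lie.chevE8.group F) → Row S
  tw_e6 : ∀ (S : Type u) [Group S] [Finite S] [IsSimpleGroup S] (K : Type) [Field K] [Fintype K] (q : ℕ), IsPrimePow q →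
    Fintype.card K = q ^ 2 → Nonempty (S ≃* Lie.twistedE6 K q) → Row S
  tw_d4 : ∀ (S : Type u) [Group S] [Finite S] [IsSimpleGroup S] (K : Type) [Field K] [Fintype K] (q : ℕ), IsPrimePow q →
    Fintype.card K = q ^ 3 → Nonempty (S ≃* Lie.twistedD4 K q) → Row S
  sz : ∀ (S : Type u) [Group S] [Finite S] [IsSimpleGroup S], Lie.IsoSuzuki S → Row S
  tw_f4 : ∀ (S : Type u) [Group S] [Finite S] [IsSimpleGroup S], Lie.Iso2F4 S → Row S
  ree : ∀ (S : Type u) [Group S] [Finite S] [IsSimpleGroup S], Lie.IsoRee S → Row S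
  tits : ∀ (S : Type u) [Group S] [Finite S] [IsSimpleGroup S], Lie.IsoTits S → Row S
  sp_M11 : ∀ (S : Type u) [Group S] [Finite S] [IsSimpleGroup S], Spor.IsoM11 S → Row S
  sp_M12 : ∀ (S : Type u) [Group S] [Finite S] [IsSimpleGroup S], Spor.IsoM12 S → Row S
  sp_M22 : ∀ (S : Type u) [Group S] [Finite S] [IsSimpleGroup S], Spor.IsoM22 S → Row S
  sp_M23 : ∀ (S : Type u) [Group S] [Finite S] [IsSimpleGroup S], Spor.IsoM23 S → Row S
  sp_M24 : ∀ (S : Type u) [Group S] [Finite S] [IsSimpleGroup S], Spor.IsoM24 S → Row S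
  sp_J1 : ∀ (S : Type u) [Group S] [Finite S] [IsSimpleGroup S], Spor.IsoJ1 S → Row S
  sp_J2 : ∀ (S : Type u) [Group S] [Finite S] [IsSimpleGroup S], Spor.IsoJ2 S → Row S
  sp_J3 : ∀ (S : Type u) [Group S] [Finite S] [IsSimpleGroup S], Spor.IsoJ3 S → Row S
  sp_J4 : ∀ (S : Type u) [Group S] [Finite S] [IsSimpleGroup S], Spor.IsoJ4 S → Row S
  sp_Co1 : ∀ (S : Type u) [Group S] [Finite S] [IsSimpleGroup S], Spor.IsoCo1 S → Row S
  sp_Co2 : ∀ (S : Type u) [Group S] [Finite S] [IsSimpleGroup S], Spor.IsoCo2 S → Row S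
  sp_Co3 : ∀ (S : Type u) [Group S] [Finite S] [IsSimpleGroup S], Spor.IsoCo3 S → Row S
  sp_McL : ∀ (S : Type u) [Group S] [Finite S] [IsSimpleGroup S], Spor.IsoMcL S → Row S
  sp_HS : ∀ (S : Type u) [Group S] [Finite S] [IsSimpleGroup S], Spor.IsoHS S → Row S
  sp_Suz : ∀ (S : Type u) [Group S] [Finite S] [IsSimpleGroup S], Spor.IsoSuz S → Row S
  sp_He : ∀ (S : Type u) [Group S] [Finite S] [IsSimpleGroup S], Spor.IsoHe S → Row S
  sp_Ru : ∀ (S : Type u) [Group S] [Finite S] [IsSimpleGroup S], Spor.IsoRu S → Row S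
  sp_ON : ∀ (S : Type u) [Group S] [Finite S] [IsSimpleGroup S], Spor.IsoON S → Row S
  sp_Ly : ∀ (S : Type u) [Group S] [Finite S] [IsSimpleGroup S], Spor.IsoLy S → Row S
  sp_Fi22 : ∀ (S : Type u) [Group S] [Finite S] [IsSimpleGroup S], Spor.IsoFi22 S → Row S
  sp_Fi23 : ∀ (S : Type u) [Group S] [Finite S] [IsSimpleGroup S], Spor.IsoFi23 S → Row S
  sp_Fi24p : ∀ (S : Type u) [Group S] [Finite S] [IsSimpleGroup S], Spor.IsoFi24' S → Row S
  sp_HN : ∀ (S : Type u) [Group S] [Finite S] [IsSimpleGroup S], Spor.IsoHN S → Row S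
  sp_Th : ∀ (S : Type u) [Group S] [Finite S] [IsSimpleGroup S], Spor.IsoTh S → Row S
  sp_B : ∀ (S : Type u) [Group S] [Finite S] [IsSimpleGroup S], Spor.IsoB S → Row S
  sp_M : ∀ (S : Type u) [Group S] [Finite S] [IsSimpleGroup S], Spor.IsoM S → Row S

theorem char_of {F : Type} [Field F] [Fintype F] {K : Type u} [Group K]
    (h : ∀ r : ℕ, CharP F r → IsLieTypeChar r K) : ∃ r : ℕ, r.Prime ∧ IsLieTypeChar r K := by
  obtain ⟨r, hchar⟩ := CharP.exists F
  obtain ⟨f, hr, hf⟩ := FiniteField.card F r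
  exact ⟨r, hr, h r hchar⟩

/-- The known non-abelian simple groups: alternating, of Lie type, Tits, sporadic. -/
theorem known_split {K : Type u} [Group K] (hna : ¬ IsMulCommutative K) (hk : IsKnownSimple' K) :
    IsAlternating K ∨ (∃ r : ℕ, r.Prime ∧ IsLieTypeChar r K) ∨ Lie.IsoTits K ∨ IsSporadicGroup K := by
  rcases hk with hk | hk | hk | hk | hk | hk | hk | hk | hk | hk
  · exfalso
    apply hna
    have h1 : Fact (Nat.card K).Prime := ⟨hk⟩
    have h2 : IsCyclic K := isCyclic_of_prime_card (p := Nat.card K) rfl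
    exact IsCyclic.isMulCommutative
  · exact Or.inl hk
  · obtain ⟨F, _, _, n, hn, h4, e⟩ := hk
    exact Or.inr (Or.inl (char_of (F := F) fun r hr => Or.inl ⟨F, _, _, hr, n, hn, h4, e⟩))
  · obtain ⟨F, _, _, m, hm, h3, e⟩ := hk
    exact Or.inr (Or.inl (char_of (F := F) fun r hr => Or.inr (Or.inl ⟨F, _, _, hr, m, hm, h3, e⟩)))
  · obtain ⟨F, _, _, n, q, hF, hn, h32, e⟩ := hk
    exact Or.inr (Or.inl (char_of (F := F) fun r hr => Or.inr (Or.inr (Or.inl ⟨F, _, _, hr, n, q, hF, hn, h32, e⟩))))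
  · obtain ⟨F, _, _, m, hm, hodd, e⟩ := hk
    exact Or.inr (Or.inl (char_of (F := F) fun r hr =>
      Or.inr (Or.inr (Or.inr (Or.inl ⟨F, _, _, hr, m, hm, hodd, e⟩)))))
  · obtain ⟨F, i, j, m, hm, e⟩ := hk
    exact Or.inr (Or.inl (char_of (F := F) fun r hr =>
      Or.inr (Or.inr (Or.inr (Or.inr (Or.inl ⟨F, i, j, hr, m, hm, e⟩))))))
  · obtain ⟨F, i, j, m, a, b, hm, hab, e⟩ := hk
    exact Or.inr (Or.inl (char_of (F := F) fun r hr =>
      Or.inr (Or.inr (Or.inr (Or.inr (Or.inr (Or.inl ⟨F, i, j, hr, m, a, b, hm, hab, e⟩)))))))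
  · have hex : ∀ {F : Type} (_ : Field F) (_ : Fintype F),
        ((3 ≤ Fintype.card F ∧ Nonempty (K ≃* Lie.chevG2.group F)) ∨ Nonempty (K ≃* Lie.chevF4.group F) ∨
          Nonempty (K ≃* Lie.chevE6.group F) ∨ Nonempty (K ≃* Lie.chevE7.group F) ∨ Nonempty (K ≃* Lie.chevE8.group F)) →
        ∃ r : ℕ, r.Prime ∧ IsLieTypeChar r K := by
      intro F _ _ h
      exact char_of (F := F) fun r hr =>
        Or.inr (Or.inr (Or.inr (Or.inr (Or.inr (Or.inr (Or.inl ⟨F, _, _, hr, h⟩))))))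
    rcases hk with hk | hk | hk | hk | hk | hk | hk | hk | hk | hk | hk
    · obtain ⟨F, i, j, h3, e⟩ := hk
      exact Or.inr (Or.inl (hex i j (Or.inl ⟨h3, e⟩)))
    · obtain ⟨F, i, j, e⟩ := hk
      exact Or.inr (Or.inl (hex i j (Or.inr (Or.inl e))))
    · obtain ⟨F, i, j, e⟩ := hk
      exact Or.inr (Or.inl (hex i j (Or.inr (Or.inr (Or.inl e)))))
    · obtain ⟨F, i, j, e⟩ := hk
      exact Or.inr (Or.inl (hex i j (Or.inr (Or.inr (Or.inr (Or.inl e))))))
    · obtain ⟨F, i, j, e⟩ := hk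
      exact Or.inr (Or.inl (hex i j (Or.inr (Or.inr (Or.inr (Or.inr e))))))
    · obtain ⟨F, _, _, q, hq, hF, e⟩ := hk
      exact Or.inr (Or.inl (char_of (F := F) fun r hr =>
        Or.inr (Or.inr (Or.inr (Or.inr (Or.inr (Or.inr (Or.inr (Or.inl ⟨F, _, _, hr, q, hq, Or.inl ⟨hF, e⟩⟩)))))))))
    · obtain ⟨F, _, _, q, hq, hF, e⟩ := hk
      exact Or.inr (Or.inl (char_of (F := F) fun r hr =>
        Or.inr (Or.inr (Or.inr (Or.inr (Or.inr (Or.inr (Or.inr (Or.inl ⟨F, _, _, hr, q, hq, Or.inr ⟨hF, e⟩⟩)))))))))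
    · exact Or.inr (Or.inl ⟨2, Nat.prime_two,
        Or.inr (Or.inr (Or.inr (Or.inr (Or.inr (Or.inr (Or.inr (Or.inr (Or.inl ⟨rfl, hk⟩))))))))⟩)
    · exact Or.inr (Or.inl ⟨3, Nat.prime_three,
        Or.inr (Or.inr (Or.inr (Or.inr (Or.inr (Or.inr (Or.inr (Or.inr (Or.inr (Or.inr ⟨rfl, hk⟩)))))))))⟩)
    · exact Or.inr (Or.inl ⟨2, Nat.prime_two,
        Or.inr (Or.inr (Or.inr (Or.inr (Or.inr (Or.inr (Or.inr (Or.inr (Or.inr (Or.inl ⟨rfl, hk⟩)))))))))⟩)
    · exact Or.inr (Or.inr (Or.inl hk))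
  · exact Or.inr (Or.inr (Or.inr hk))

theorem Row.congr {S T : Type*} [Group S] [Group T] (h : Row S) (e : S ≃* T) : Row T := by
  intro p hp hd
  rw [← Nat.card_congr e.toEquiv] at hd
  exact (h p hp hd).congr e

/-- **The rows cover all known finite non-abelian simple groups.** -/
theorem Rows.row (R : Rows.{u}) (S : Type u) [Group S] [Finite S] [IsSimpleGroup S] (hna : ¬ IsMulCommutative S)
    (hk : IsKnownSimple' S) : Row S := by
  rcases known_split hna hk with h | ⟨l, hl, h⟩ | h | h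
  · obtain ⟨n, hn, ⟨e⟩⟩ := h
    exact (R.alt n hn).congr e.symm
  · rcases h with h | h | h | h | h | h | h | h | ⟨-, h⟩ | ⟨-, h⟩ | ⟨-, h⟩
    · exact R.psl S l h
    · exact R.psp S l h
    · exact R.psu S l h
    · exact R.odd S l h
    · exact R.plus S l h
    · exact R.minus S l h
    · obtain ⟨F, _, _, _, h⟩ := h
      rcases h with ⟨h3, h⟩ | h | h | h | h
      · exact R.g2 S F h3 h
      · exact R.f4 S F h
      · exact R.e6 S F h
      · exact R.e7 S F h
      · exact R.e8 S F h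
    · obtain ⟨K, _, _, _, q, hq, ⟨hK, h⟩ | ⟨hK, h⟩⟩ := h
      · exact R.tw_e6 S K q hq hK h
      · exact R.tw_d4 S K q hq hK h
    · exact R.sz S h
    · exact R.tw_f4 S h
    · exact R.ree S h
  · exact R.tits S h
  · rcases h with h | h | h | h | h | h | h | h | h | h | h | h | h | h | h | h | h | h | h | h | h | h | h | h | h | h
    · exact R.sp_M11 S h
    · exact R.sp_M12 S h
    · exact R.sp_M22 S h
    · exact R.sp_M23 S h
    · exact R.sp_M24 S h
    · exact R.sp_J1 S h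
    · exact R.sp_J2 S h
    · exact R.sp_J3 S h
    · exact R.sp_J4 S h
    · exact R.sp_Co1 S h
    · exact R.sp_Co2 S h
    · exact R.sp_Co3 S h
    · exact R.sp_McL S h
    · exact R.sp_HS S h
    · exact R.sp_Suz S h
    · exact R.sp_He S h
    · exact R.sp_Ru S h
    · exact R.sp_ON S h
    · exact R.sp_Ly S h
    · exact R.sp_Fi22 S h
    · exact R.sp_Fi23 S h
    · exact R.sp_Fi24p S h
    · exact R.sp_HN S h
    · exact R.sp_Th S h
    · exact R.sp_B S h
    · exact R.sp_M S h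

end Cfsg.Agent.H773.Pw
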