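import Mathlib
import Cfsg.Prelude.Def_LieTypeChar
import Cfsg.Agent.H344.DP.TwDefs
import Cfsg.Agent.H346.Pw.TwoOf
import Cfsg.Agent.OddHalf.NI.ModelTw
import Cfsg.Agent.Nodes.RGDTwD4
import Cfsg.Agent.Nodes.RGDTwNode
import Cfsg.Agent.Nodes.ChevChart

/-!
# S2465 (LIE/U): products of two `r`-elements in `²E₆(q)` and `³D₄(q)` (helper773)
-/

set_option autoImplicit false
set_option linter.unusedSectionVars false

namespace Cfsg.Agent.H773.TwU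

open CoxeterSystem Cfsg.Agent.ChevalleyStructure.CoxeterGeom Cfsg.Agent.Tits.Roots Cfsg.Agent.Tits.Core
  Cfsg.Agent.Nodes.BNOf Cfsg.Agent.Nodes.RGDTwGen Cfsg.Agent.Nodes.RGDChev Cfsg.Agent.Nodes.RGDFold
  Cfsg.Agent.Nodes.RGDFoldSL Cfsg.Agent.Nodes.RGDTwCoord Cfsg.Agent.Nodes.RGDTwD4
open Cfsg.Lie Cfsg.Agent.ChevalleyStructure
open Cfsg.Agent.Nodes.RGDTwNode.D4 (nodeOK eps_one rest)
open Cfsg.Agent.H514.DP (PE IsPE PW)

universe u

section D4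

variable {K : Type u} [Field K] [Fintype K] {q : ℕ} {φ : K →+* K}

theorem hfD (i : Fin 2) : ∀ s ∈ Cfsg.Agent.Nodes.RGDTwNode.D4.rep i :: rest i, ∀ t : K,
    ((eps s : ℤ) : K) * φ t = φ t := fun s hs t => by
  rw [eps_one i s hs, Int.cast_one, one_mul]

/-- **`³D₄(q)`: two `r`-elements.** -/
theorem pw_d4 {r : ℕ} [Fact r.Prime] [CharP K r] (hq : IsPrimePow q) (hK : Fintype.card K = q ^ 3)
    [IsSimpleGroup ↥(twistedD4 K q)] : PW r 2 ↥(twistedD4 K q) := by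
  obtain ⟨φ, hφ⟩ := D4Fixed.exists_frob hq hK
  have hle := D4Fixed.twisted_le_fix hK hφ
  have hW : Finite CoxeterMatrix.G₂.Group :=
    Cfsg.Agent.Nodes.RGDFold.finite_W (hp := hp) CoxeterMatrix.G₂.toCoxeterSystem isCartan foldData
  exact Cfsg.Agent.H346.PwU.pw_of_coord' (rgd CoxeterMatrix.G₂.toCoxeterSystem hK hφ r)
    (G1_eq_top CoxeterMatrix.G₂.toCoxeterSystem hK hφ)
    (Cfsg.Agent.OddHalf.NI.ModelTw.coord (foldGrp hφ hle) nodeOK hfD CoxeterMatrix.G₂.toCoxeterSystem isCartan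
      foldData r)
    (Cfsg.Agent.Nodes.ChevChart.irr_of Cfsg.Agent.Nodes.ChevChart.irrG)

end D4

/-- **`²E₆(q)`: two `r`-elements.** -/
theorem pw_e6 {K : Type u} [Field K] [Fintype K] {q r : ℕ} [Fact r.Prime] [CharP K r] (hq : IsPrimePow q)
    (hK : Fintype.card K = q ^ 2) [IsSimpleGroup ↥(twistedE6 K q)] : PW r 2 ↥(twistedE6 K q) := by
  obtain ⟨φ, hφ, hqq⟩ := Cfsg.Agent.ChevalleyStructure.TwE6Basic.exists_frob hq hK
  exact Cfsg.Agent.H344.DP.pw_own hφ hqq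

/-- **The twisted groups `²E₆(q)`, `³D₄(q)`: every element is a product of two `r`-elements.** -/
theorem pw_twisted {r : ℕ} [Fact r.Prime] {S : Type*} [Group S] [IsSimpleGroup S] (h : IsTwistedE6D4Char r S) :
    PW r 2 S := by
  obtain ⟨K, _, _, _, q, hq, (⟨hK, ⟨e⟩⟩ | ⟨hK, ⟨e⟩⟩)⟩ := h
  · have : IsSimpleGroup ↥(twistedE6 K q) := e.symm.isSimpleGroup
    exact (pw_e6 hq hK).congr e.symm
  · have : IsSimpleGroup ↥(twistedD4 K q) := e.symm.isSimpleGroup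
    exact (pw_d4 hq hK).congr e.symm

end Cfsg.Agent.H773.TwU
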